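import Mathlib
import Cfsg.Agent.Lib.Helper19.Dihedral

set_option autoImplicit false
set_option linter.unusedSectionVars false

/-! A Brauer-Suzuki-Wall type engine for a non-normal subgroup `A` containing the centraliser of each
of its non-identity elements and having a central involution (generalising `Helper19.BSW`). -/

namespace Cfsg.Agent.Lib.Helper71.CC

open Cfsg.Agent.Lib.Helper19

variable {G : Type*} [Group G]

theorem mem_normalizer_of_conj_le (S : Subgroup G) [Finite S] {g : G}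
    (key : ∀ s ∈ S, g * s * g⁻¹ ∈ S) : g ∈ Subgroup.normalizer (S : Set G) := by
  rw [Subgroup.mem_normalizer_iff]
  intro s
  refine ⟨key s, fun hs => ?_⟩
  let φ : S → S := fun s => ⟨g * (s : G) * g⁻¹, key s s.2⟩
  have hφ : Function.Injective φ := by
    intro a b hab
    have h1 : g * (a : G) * g⁻¹ = g * (b : G) * g⁻¹ := congrArg Subtype.val hab
    have h2 : (a : G) = b := by
      have := congrArg (fun x => g⁻¹ * x * g) h1
      simpa [mul_assoc] using this
    exact Subtype.ext h2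
  obtain ⟨a, ha⟩ := (Finite.injective_iff_surjective.mp hφ) ⟨g * s * g⁻¹, hs⟩
  have h1 : g * (a : G) * g⁻¹ = g * s * g⁻¹ := congrArg Subtype.val ha
  have h2 : (a : G) = s := by
    have := congrArg (fun x => g⁻¹ * x * g) h1
    simpa [mul_assoc] using this
  rw [← h2]; exact a.2

theorem conj_ne_one {a g : G} (ha : a ≠ 1) : g * a * g⁻¹ ≠ 1 := by
  intro hh
  apply ha
  have : a = g⁻¹ * (g * a * g⁻¹) * g := by group
  rw [this, hh]; group

theorem conj_sq {a g : G} (ha : a * a = 1) : (g * a * g⁻¹) * (g * a * g⁻¹) = 1 := by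
  calc (g * a * g⁻¹) * (g * a * g⁻¹) = g * (a * a) * g⁻¹ := by group
    _ = 1 := by rw [ha]; group

/-- `A` contains the centraliser of each of its non-identity elements, has a central involution `z`
and is not normal. -/
structure CCS (A : Subgroup G) (z : G) : Prop where
  cc : ∀ a ∈ A, a ≠ 1 → ∀ x : G, x * a = a * x → x ∈ A
  zA : z ∈ A
  z1 : z ≠ 1
  zz : z * z = 1
  zc : ∀ a ∈ A, z * a = a * z
  nn : ∃ g : G, g ∉ Subgroup.normalizer (A : Set G)

/-- `H = N_G(A)` -/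
abbrev HA (A : Subgroup G) : Subgroup G := Subgroup.normalizer (A : Set G)

/-- `D = H ∩ gHg⁻¹` -/
abbrev DA (A : Subgroup G) (g : G) : Subgroup G := HA A ⊓ (HA A).map (MulAut.conj g).toMonoidHom

theorem mem_DA_iff {A : Subgroup G} {g d : G} : d ∈ DA A g ↔ d ∈ HA A ∧ g⁻¹ * d * g ∈ HA A := by
  rw [Subgroup.mem_inf, Subgroup.mem_map]
  refine and_congr_right (fun _ => ?_)
  constructor
  · rintro ⟨x, hx, rfl⟩
    have : g⁻¹ * ((MulAut.conj g).toMonoidHom x) * g = x := by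
      simp [MulAut.conj_apply, mul_assoc]
    rw [this]; exact hx
  · intro h
    exact ⟨g⁻¹ * d * g, h, by simp [MulAut.conj_apply, mul_assoc]⟩

theorem DA_congr {A : Subgroup G} {g w : G} (h : g⁻¹ * w ∈ HA A) : DA A g = DA A w := by
  ext d
  rw [mem_DA_iff, mem_DA_iff]
  refine and_congr_right (fun _ => ?_)
  have e : w⁻¹ * d * w = (g⁻¹ * w)⁻¹ * (g⁻¹ * d * g) * (g⁻¹ * w) := by group
  constructor
  · intro h1
    rw [e]; exact mul_mem (mul_mem (inv_mem h) h1) h
  · intro h1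
    have e2 : g⁻¹ * d * g = (g⁻¹ * w) * (w⁻¹ * d * w) * (g⁻¹ * w)⁻¹ := by group
    rw [e2]; exact mul_mem (mul_mem h h1) (inv_mem h)

namespace CCS

variable {A : Subgroup G} {z : G}

theorem conj_mem (_h : CCS A z) {n a : G} (hn : n ∈ HA A) (ha : a ∈ A) : n * a * n⁻¹ ∈ A :=
  (Subgroup.mem_normalizer_iff.mp hn a).mp ha

theorem conj_mem' (h : CCS A z) {n a : G} (hn : n ∈ HA A) (ha : a ∈ A) : n⁻¹ * a * n ∈ A := by
  have := h.conj_mem (inv_mem hn) ha
  rwa [inv_inv] at this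

theorem A_le : A ≤ HA A := Subgroup.le_normalizer

variable [Finite G]

/-- `A` is a TI-subgroup -/
theorem ti (h : CCS A z) {a g : G} (ha : a ∈ A) (ha1 : a ≠ 1) (hg : g * a * g⁻¹ ∈ A) :
    g ∈ HA A := by
  have hz' : g⁻¹ * z * g ∈ A := by
    apply h.cc a ha ha1
    have := h.zc _ hg
    calc g⁻¹ * z * g * a = g⁻¹ * (z * (g * a * g⁻¹)) * g := by group
      _ = g⁻¹ * ((g * a * g⁻¹) * z) * g := by rw [this]
      _ = a * (g⁻¹ * z * g) := by group
  have hz'1 : g⁻¹ * z * g ≠ 1 := by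
    have := conj_ne_one (g := g⁻¹) h.z1
    rwa [inv_inv] at this
  have key : ∀ b ∈ A, g⁻¹ * b * (g⁻¹)⁻¹ ∈ A := by
    intro b hb
    rw [inv_inv]
    apply h.cc _ hz' hz'1
    have := h.zc b hb
    calc g⁻¹ * b * g * (g⁻¹ * z * g) = g⁻¹ * (b * z) * g := by group
      _ = g⁻¹ * (z * b) * g := by rw [this]
      _ = g⁻¹ * z * g * (g⁻¹ * b * g) := by group
  have := mem_normalizer_of_conj_le A key
  simpa using inv_mem this

/-- every involution is conjugate into `A` -/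
theorem exists_conj_mem (h : CCS A z) {v : G} (hv : v * v = 1) : ∃ y : G, y⁻¹ * v * y ∈ A := by
  rcases Nat.even_or_odd (orderOf (z * v)) with he | ho
  · obtain ⟨w, hw1, -, hwz, hwv⟩ := exists_central_invol_of_even h.zz hv he
    have hwA : w ∈ A := h.cc z h.zA h.z1 w hwz
    exact ⟨1, by simpa using h.cc w hwA hw1 v hwv.symm⟩
  · obtain ⟨w, hw2, hw1, -, -⟩ := exists_invol_swap_of_odd h.zz hv ho
    refine ⟨w, ?_⟩
    rw [invol_inv hw2, ← hw1]
    have : w * (w * z * w) * w = (w * w) * z * (w * w) := by simp only [mul_assoc]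
    rw [this, hw2, one_mul, mul_one]
    exact h.zA

/-- involutions of `A` are central in `A` -/
theorem invol_central (h : CCS A z) {i : G} (hiA : i ∈ A) (hi1 : i ≠ 1) (hi : i * i = 1) :
    ∀ b ∈ A, i * b = b * i := by
  obtain ⟨g, hg⟩ := h.nn
  have hjA : g * z * g⁻¹ ∉ A := fun hh => hg (h.ti h.zA h.z1 hh)
  have hj2 : (g * z * g⁻¹) * (g * z * g⁻¹) = 1 := conj_sq h.zz
  rcases Nat.even_or_odd (orderOf ((g * z * g⁻¹) * i)) with he | ho
  · obtain ⟨w, hw1, -, hwj, hwi⟩ := exists_central_invol_of_even hj2 hi he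
    have hwA : w ∈ A := h.cc i hiA hi1 w hwi
    exact absurd (h.cc w hwA hw1 _ hwj.symm) hjA
  · obtain ⟨w, hw2, hw1, -, -⟩ := exists_invol_swap_of_odd hj2 hi ho
    have hconj : (w * g) * z * (w * g)⁻¹ = i := by
      rw [← hw1, mul_inv_rev, invol_inv hw2]; simp only [mul_assoc]
    have hH : w * g ∈ HA A := h.ti h.zA h.z1 (by rw [hconj]; exact hiA)
    intro b hb
    have h1 := h.zc _ (h.conj_mem' hH hb)
    rw [← hconj]
    calc (w * g) * z * (w * g)⁻¹ * b = (w * g) * (z * ((w * g)⁻¹ * b * (w * g))) * (w * g)⁻¹ := by group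
      _ = (w * g) * (((w * g)⁻¹ * b * (w * g)) * z) * (w * g)⁻¹ := by rw [h1]
      _ = b * ((w * g) * z * (w * g)⁻¹) := by group

/-- commutation is transitive through elements commuting with an involution -/
theorem key (h : CCS A z) {v c x : G} (hv1 : v ≠ 1) (hv : v * v = 1) (hc1 : c ≠ 1)
    (hcv : c * v = v * c) (hxc : x * c = c * x) : x * v = v * x := by
  obtain ⟨y, hy⟩ := h.exists_conj_mem hv
  have hv01 : y⁻¹ * v * y ≠ 1 := by
    have := conj_ne_one (g := y⁻¹) hv1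
    rwa [inv_inv] at this
  have hv02 : (y⁻¹ * v * y) * (y⁻¹ * v * y) = 1 := by
    have := conj_sq (g := y⁻¹) hv
    rwa [inv_inv] at this
  have hc0 : y⁻¹ * c * y ∈ A := by
    apply h.cc _ hy hv01
    calc y⁻¹ * c * y * (y⁻¹ * v * y) = y⁻¹ * (c * v) * y := by group
      _ = y⁻¹ * (v * c) * y := by rw [hcv]
      _ = y⁻¹ * v * y * (y⁻¹ * c * y) := by group
  have hc01 : y⁻¹ * c * y ≠ 1 := by
    have := conj_ne_one (g := y⁻¹) hc1
    rwa [inv_inv] at this
  have hx0 : y⁻¹ * x * y ∈ A := by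
    apply h.cc _ hc0 hc01
    calc y⁻¹ * x * y * (y⁻¹ * c * y) = y⁻¹ * (x * c) * y := by group
      _ = y⁻¹ * (c * x) * y := by rw [hxc]
      _ = y⁻¹ * c * y * (y⁻¹ * x * y) := by group
  have h1 := h.invol_central hy hv01 hv02 _ hx0
  calc x * v = y * ((y⁻¹ * x * y) * (y⁻¹ * v * y)) * y⁻¹ := by group
    _ = y * ((y⁻¹ * v * y) * (y⁻¹ * x * y)) * y⁻¹ := by rw [h1]
    _ = v * x := by group

/-- two non-commuting involutions have a product of odd order -/
theorem odd_of_not_comm (h : CCS A z) {i j : G} (hi : i * i = 1) (hj : j * j = 1)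
    (hij : i * j ≠ j * i) : Odd (orderOf (i * j)) := by
  by_contra hodd
  rw [Nat.not_odd_iff_even] at hodd
  obtain ⟨w, hw1, -, hwi, hwj⟩ := exists_central_invol_of_even hi hj hodd
  have hi1 : i ≠ 1 := by
    rintro rfl
    exact hij (by simp)
  exact hij (h.key hi1 hi hw1 hwi hwj.symm).symm

/-- elements of `N(A)` of square one lie in `A` -/
theorem invol_mem (h : CCS A z) {v : G} (hv : v * v = 1) (hvH : v ∈ HA A) : v ∈ A := by
  have h1 : v * z * v⁻¹ ∈ A := h.conj_mem hvH h.zA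
  have hvi := invol_inv hv
  by_cases hc : v * z * v⁻¹ = z
  · apply h.cc z h.zA h.z1
    calc v * z = (v * z * v⁻¹) * v := by group
      _ = z * v := by rw [hc]
  · have h2 : z * (v * z * v⁻¹) ∈ A := mul_mem h.zA h1
    have h3 : z * (v * z * v⁻¹) ≠ 1 := by
      intro hh
      apply hc
      calc v * z * v⁻¹ = (z * z) * (v * z * v⁻¹) := by rw [h.zz, one_mul]
        _ = z * (z * (v * z * v⁻¹)) := by rw [mul_assoc]
        _ = z := by rw [hh, mul_one]
    apply h.cc _ h2 h3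
    have h4 := h.zc _ h1
    calc v * (z * (v * z * v⁻¹)) = (v * z * v⁻¹) * (v * v) * z * v⁻¹ := by group
      _ = (v * z * v⁻¹) * z * v := by rw [hv, mul_one, hvi]
      _ = z * (v * z * v⁻¹) * v := by rw [h4]

/-- for `g ∉ N(A)` there is an involution `w` with `w N(A) = g N(A)`. -/
theorem exists_invol_coset (h : CCS A z) {g : G} (hg : g ∉ HA A) :
    ∃ w : G, w ≠ 1 ∧ w * w = 1 ∧ w ∉ HA A ∧ g⁻¹ * w ∈ HA A := by
  have ht'2 : (g * z * g⁻¹) * (g * z * g⁻¹) = 1 := conj_sq h.zz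
  have hnc : z * (g * z * g⁻¹) ≠ (g * z * g⁻¹) * z := by
    intro hc
    exact hg (h.ti h.zA h.z1 (h.cc z h.zA h.z1 _ hc.symm))
  obtain ⟨w, hw2, hw1, -, -⟩ := exists_invol_swap_of_odd h.zz ht'2 (h.odd_of_not_comm h.zz ht'2 hnc)
  have hwinv := invol_inv hw2
  have hmem : g⁻¹ * w ∈ HA A := by
    apply h.ti h.zA h.z1
    have : g⁻¹ * w * z * (g⁻¹ * w)⁻¹ = g⁻¹ * (w * z * w) * g := by
      rw [mul_inv_rev, hwinv, inv_inv]; simp only [mul_assoc]
    rw [this, hw1]
    have : g⁻¹ * (g * z * g⁻¹) * g = z := by group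
    rw [this]; exact h.zA
  have hwH : w ∉ HA A := by
    intro hw
    apply hg
    have h1 := mul_mem hw (inv_mem hmem)
    have h2 : w * (g⁻¹ * w)⁻¹ = g := by group
    rwa [h2] at h1
  refine ⟨w, ?_, hw2, hwH, hmem⟩
  rintro rfl
  exact hwH (one_mem _)

theorem exists_invol_not_mem (h : CCS A z) : ∃ u : G, u ≠ 1 ∧ u * u = 1 ∧ u ∉ HA A := by
  obtain ⟨g, hg⟩ := h.nn
  obtain ⟨w, hw1, hw2, hwH, -⟩ := h.exists_invol_coset hg
  exact ⟨w, hw1, hw2, hwH⟩

end CCS

end Cfsg.Agent.Lib.Helper71.CC
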