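import Mathlib
import Cfsg.Agent.Lib.Helper71.CCEngine

set_option autoImplicit false
set_option linter.unusedSectionVars false

/-! CC-engine: the two point stabilisers `D = H ∩ gHg⁻¹`, `H = N(A)`. -/

namespace Cfsg.Agent.Lib.Helper71.CC

open Cfsg.Agent.Lib.Helper19

variable {G : Type*} [Group G]

namespace CCS

variable {A : Subgroup G} {z : G} [Finite G]

theorem D_sq (h : CCS A z) {g d : G} (hg : g ∉ HA A) (hd : d ∈ DA A g) (hd2 : d * d = 1) : d = 1 := by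
  by_contra hd1
  obtain ⟨hdH, hdg⟩ := mem_DA_iff.mp hd
  have h1 : d ∈ A := h.invol_mem hd2 hdH
  have h2 : (g⁻¹ * d * g) * (g⁻¹ * d * g) = 1 := by
    have := conj_sq (g := g⁻¹) hd2
    rwa [inv_inv] at this
  have h3 : g⁻¹ * d * g ∈ A := h.invol_mem h2 hdg
  have h4 : g⁻¹ ∈ HA A := by
    apply h.ti h1 hd1
    rwa [inv_inv]
  exact hg (by simpa using inv_mem h4)

theorem D_odd (h : CCS A z) {g : G} (hg : g ∉ HA A) : Odd (Nat.card (DA A g)) := by
  by_contra hodd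
  rw [Nat.not_odd_iff_even] at hodd
  have : Fact (Nat.Prime 2) := ⟨Nat.prime_two⟩
  obtain ⟨d, hd⟩ := exists_prime_orderOf_dvd_card' (G := DA A g) 2 hodd.two_dvd
  have h1 : (d : G) * (d : G) = 1 := by
    have := pow_orderOf_eq_one d
    rw [hd, pow_two] at this
    exact congrArg Subtype.val this
  have h2 := h.D_sq hg d.2 h1
  have h3 : d = 1 := Subtype.ext h2
  rw [h3, orderOf_one] at hd
  omega

theorem D_conj_u (_h : CCS A z) {u d : G} (hu : u * u = 1) (hd : d ∈ DA A u) :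
    u * d * u⁻¹ ∈ DA A u := by
  obtain ⟨h1, h2⟩ := mem_DA_iff.mp hd
  have hui := invol_inv hu
  rw [mem_DA_iff]
  constructor
  · rw [hui] at h2 ⊢; exact h2
  · have : u⁻¹ * (u * d * u⁻¹) * u = d := by group
    rw [this]; exact h1

/-- `A ∩ D = 1` -/
theorem D_inf_A_u (h : CCS A z) {u a : G} (hu1 : u ≠ 1) (hu : u * u = 1) (huH : u ∉ HA A)
    (ha : a ∈ DA A u) (haA : a ∈ A) : a = 1 := by
  by_contra ha1
  have hui := invol_inv hu
  obtain ⟨-, ha'⟩ := mem_DA_iff.mp ha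
  rw [hui] at ha'
  -- `a' = u a u`
  have hx : a * (u * a * u) * a⁻¹ * (u * a * u)⁻¹ = 1 := by
    by_contra hx1
    apply huH
    apply h.ti (a := a * (u * a * u) * a⁻¹ * (u * a * u)⁻¹) _ hx1
    · have e : u * (a * (u * a * u) * a⁻¹ * (u * a * u)⁻¹) * u⁻¹
          = ((u * a * u) * a * (u * a * u)⁻¹) * a⁻¹ := by
        rw [hui]
        have e1 : (u * a * u)⁻¹ = u * a⁻¹ * u := by
          rw [mul_inv_rev, mul_inv_rev, hui]; simp only [mul_assoc]
        rw [e1]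
        calc u * (a * (u * a * u) * a⁻¹ * (u * a⁻¹ * u)) * u
            = u * a * u * a * (u * a⁻¹ * u) * a⁻¹ * (u * u) := by simp only [mul_assoc]
          _ = u * a * u * a * (u * a⁻¹ * u) * a⁻¹ := by rw [hu, mul_one]
      rw [e]
      exact mul_mem (h.conj_mem ha' haA) (inv_mem haA)
    · have e : a * (u * a * u) * a⁻¹ * (u * a * u)⁻¹ = a * ((u * a * u) * a⁻¹ * (u * a * u)⁻¹) := by
        simp only [mul_assoc]
      rw [e]
      exact mul_mem haA (h.conj_mem ha' (inv_mem haA))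
  have hcomm : a * (u * a * u) = (u * a * u) * a := by
    calc a * (u * a * u) = (a * (u * a * u) * a⁻¹ * (u * a * u)⁻¹) * ((u * a * u) * a) := by group
      _ = (u * a * u) * a := by rw [hx, one_mul]
  by_cases hc : a * (u * a * u) = 1
  · apply huH
    apply h.ti haA ha1
    have : u * a * u⁻¹ = a⁻¹ := by
      rw [hui]; exact (inv_eq_of_mul_eq_one_right hc).symm
    rw [this]; exact inv_mem haA
  · have hcu : a * (u * a * u) * u = u * (a * (u * a * u)) := by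
      calc a * (u * a * u) * u = (u * a * u) * a * u := by rw [hcomm]
        _ = u * (a * (u * a * u)) := by simp only [mul_assoc]
    have hac : a * (a * (u * a * u)) = a * (u * a * u) * a := by
      rw [mul_assoc a (u * a * u) a, ← hcomm]
    have h1 := h.key hu1 hu hc hcu hac
    apply huH
    apply h.ti haA ha1
    have : u * a * u⁻¹ = a := by
      rw [← h1]; group
    rw [this]; exact haA

theorem D_inf_A (h : CCS A z) {g a : G} (hg : g ∉ HA A) (ha : a ∈ DA A g) (haA : a ∈ A) : a = 1 := by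
  obtain ⟨w, hw1, hw2, hwH, hgw⟩ := h.exists_invol_coset hg
  rw [DA_congr hgw] at ha
  exact h.D_inf_A_u hw1 hw2 hwH ha haA

/-- `D` is transitive on the involutions of `A`, through elements inverted by `u` -/
theorem D_trans (h : CCS A z) {u s t : G} (hu : u * u = 1) (huH : u ∉ HA A)
    (hs : s ∈ A) (hs1 : s ≠ 1) (hs2 : s * s = 1) (ht : t ∈ A) (ht1 : t ≠ 1) (ht2 : t * t = 1) :
    ∃ d ∈ DA A u, d * s * d⁻¹ = t ∧ u * d * u⁻¹ = d⁻¹ := by
  have huinv := invol_inv hu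
  have hs₁2 : (u * s * u⁻¹) * (u * s * u⁻¹) = 1 := conj_sq hs2
  have hnc : (u * s * u⁻¹) * t ≠ t * (u * s * u⁻¹) := by
    intro hc
    exact huH (h.ti hs hs1 (h.cc t ht ht1 _ hc))
  obtain ⟨w, hw2, hw1, -, -⟩ := exists_invol_swap_of_odd hs₁2 ht2 (h.odd_of_not_comm hs₁2 ht2 hnc)
  have hwinv := invol_inv hw2
  have hconj : (w * u) * s * (w * u)⁻¹ = t := by
    rw [← hw1, mul_inv_rev, hwinv]; simp only [mul_assoc]
  have hH : w * u ∈ HA A := h.ti hs hs1 (by rw [hconj]; exact ht)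
  have hinv : u * (w * u) * u⁻¹ = (w * u)⁻¹ := by
    rw [mul_inv_rev, hwinv, huinv]
    calc u * (w * u) * u = u * w * (u * u) := by simp only [mul_assoc]
      _ = u * w := by rw [hu, mul_one]
  refine ⟨w * u, mem_DA_iff.mpr ⟨hH, ?_⟩, hconj, hinv⟩
  have : u⁻¹ * (w * u) * u = (w * u)⁻¹ := by
    rw [← hinv, huinv]
  rw [this]; exact inv_mem hH

theorem D_inverted (h : CCS A z) {u d : G} (hu : u * u = 1) (huH : u ∉ HA A)
    (hd : d ∈ DA A u) : u * d * u⁻¹ = d⁻¹ := by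
  have hdH := (mem_DA_iff.mp hd).1
  obtain ⟨e, he, hez, heu⟩ := h.D_trans hu huH h.zA h.z1 h.zz (h.conj_mem hdH h.zA)
    (conj_ne_one h.z1) (conj_sq h.zz)
  have h1 : e⁻¹ * d ∈ A := by
    apply h.cc z h.zA h.z1
    calc e⁻¹ * d * z = e⁻¹ * (d * z * d⁻¹) * d := by group
      _ = e⁻¹ * (e * z * e⁻¹) * d := by rw [hez]
      _ = z * (e⁻¹ * d) := by group
  have h2 := h.D_inf_A huH (mul_mem (inv_mem he) hd) h1
  have h3 : d = e := (inv_mul_eq_one.mp h2).symm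
  rw [h3]; exact heu

theorem D_comm (h : CCS A z) {u d e : G} (hu : u * u = 1) (huH : u ∉ HA A)
    (hd : d ∈ DA A u) (he : e ∈ DA A u) : d * e = e * d := by
  have h1 := h.D_inverted hu huH hd
  have h2 := h.D_inverted hu huH he
  have h3 := h.D_inverted hu huH (mul_mem hd he)
  have h4 : u * (d * e) * u⁻¹ = (u * d * u⁻¹) * (u * e * u⁻¹) := by group
  rw [h4, h1, h2] at h3
  have h5 : (d⁻¹ * e⁻¹)⁻¹ = ((d * e)⁻¹)⁻¹ := by rw [h3]
  simpa using h5.symm

/-- `H = D A` -/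
theorem H_eq_DA (h : CCS A z) {u n : G} (hu : u * u = 1) (huH : u ∉ HA A) (hn : n ∈ HA A) :
    ∃ d ∈ DA A u, ∃ a ∈ A, n = d * a := by
  obtain ⟨d, hd, hds, -⟩ := h.D_trans hu huH h.zA h.z1 h.zz (h.conj_mem hn h.zA)
    (conj_ne_one h.z1) (conj_sq h.zz)
  refine ⟨d, hd, d⁻¹ * n, ?_, by group⟩
  apply h.cc z h.zA h.z1
  calc d⁻¹ * n * z = d⁻¹ * (n * z * n⁻¹) * n := by group
    _ = d⁻¹ * (d * z * d⁻¹) * n := by rw [hds]
    _ = z * (d⁻¹ * n) := by group

/-- `D` is in bijection with the involutions of `A` -/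
theorem card_D (h : CCS A z) {u : G} (hu : u * u = 1) (huH : u ∉ HA A) :
    Nat.card (DA A u) = Nat.card {t : G // t ∈ A ∧ t ≠ 1 ∧ t * t = 1} := by
  let f : DA A u → {t : G // t ∈ A ∧ t ≠ 1 ∧ t * t = 1} := fun d =>
    ⟨(d : G) * z * (d : G)⁻¹, h.conj_mem (mem_DA_iff.mp d.2).1 h.zA, conj_ne_one h.z1, conj_sq h.zz⟩
  have hf : Function.Bijective f := by
    constructor
    · intro x y hxy
      have h1 : (x : G) * z * (x : G)⁻¹ = (y : G) * z * (y : G)⁻¹ := congrArg Subtype.val hxy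
      have h2 : (y : G)⁻¹ * (x : G) ∈ A := by
        apply h.cc z h.zA h.z1
        calc (y : G)⁻¹ * (x : G) * z = (y : G)⁻¹ * ((x : G) * z * (x : G)⁻¹) * (x : G) := by group
          _ = (y : G)⁻¹ * ((y : G) * z * (y : G)⁻¹) * (x : G) := by rw [h1]
          _ = z * ((y : G)⁻¹ * (x : G)) := by group
      have h3 := h.D_inf_A huH (mul_mem (inv_mem y.2) x.2) h2
      exact Subtype.ext (inv_mul_eq_one.mp h3).symm
    · intro t
      obtain ⟨d, hd, hds, -⟩ := h.D_trans hu huH h.zA h.z1 h.zz t.2.1 t.2.2.1 t.2.2.2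
      exact ⟨⟨d, hd⟩, Subtype.ext hds⟩
  exact Nat.card_congr (Equiv.ofBijective f hf)

theorem exists_D_ne_one (h : CCS A z) (h2 : ∃ t ∈ A, t ≠ 1 ∧ t * t = 1 ∧ t ≠ z) {u : G}
    (hu : u * u = 1) (huH : u ∉ HA A) : ∃ d ∈ DA A u, d ≠ 1 := by
  obtain ⟨t, ht, ht1, ht2, htz⟩ := h2
  obtain ⟨d, hd, hds, -⟩ := h.D_trans hu huH h.zA h.z1 h.zz ht ht1 ht2
  refine ⟨d, hd, ?_⟩
  rintro rfl
  apply htz
  rw [← hds]; simp

/-- an element of `A` commuting with a non-identity element of `D` is trivial -/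
theorem A_comm_D (h : CCS A z) {g d a : G} (hg : g ∉ HA A) (hd : d ∈ DA A g) (hd1 : d ≠ 1)
    (ha : a ∈ A) (hc : a * d = d * a) : a = 1 := by
  by_contra ha1
  exact hd1 (h.D_inf_A hg hd (h.cc a ha ha1 d hc.symm))

/-- `C_H(d) ≤ D` for `1 ≠ d ∈ D` -/
theorem centralizer_D (h : CCS A z) {u d n : G} (hu : u * u = 1) (huH : u ∉ HA A)
    (hd : d ∈ DA A u) (hd1 : d ≠ 1) (hn : n ∈ HA A) (hc : n * d = d * n) : n ∈ DA A u := by
  obtain ⟨e, he, t, ht, rfl⟩ := h.H_eq_DA hu huH hn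
  have hed := h.D_comm hu huH he hd
  have h1 : t * d = d * t := by
    have : e * (t * d) = e * (d * t) := by
      calc e * (t * d) = e * t * d := by rw [mul_assoc]
        _ = d * (e * t) := hc
        _ = (d * e) * t := by rw [mul_assoc]
        _ = (e * d) * t := by rw [hed]
        _ = e * (d * t) := by rw [mul_assoc]
    exact mul_left_cancel this
  rw [h.A_comm_D huH hd hd1 ht h1, mul_one]; exact he

/-- `N_H(D) = D` -/
theorem normalizer_D (h : CCS A z) (h2 : ∃ t ∈ A, t ≠ 1 ∧ t * t = 1 ∧ t ≠ z) {u n : G}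
    (hu : u * u = 1) (huH : u ∉ HA A)
    (hn : n ∈ HA A) (hnD : ∀ d ∈ DA A u, n * d * n⁻¹ ∈ DA A u) : n ∈ DA A u := by
  obtain ⟨e, he, t, ht, rfl⟩ := h.H_eq_DA hu huH hn
  obtain ⟨d, hd, hd1⟩ := h.exists_D_ne_one h2 hu huH
  have h1 : t * d * t⁻¹ ∈ DA A u := by
    have := mul_mem (mul_mem (inv_mem he) (hnD d hd)) he
    have e2 : e⁻¹ * (e * t * d * (e * t)⁻¹) * e = t * d * t⁻¹ := by group
    rwa [e2] at this
  have h2' : t * d * t⁻¹ * d⁻¹ ∈ DA A u := mul_mem h1 (inv_mem hd)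
  have h3 : t * d * t⁻¹ * d⁻¹ ∈ A := by
    have : t * d * t⁻¹ * d⁻¹ = t * (d * t⁻¹ * d⁻¹) := by group
    rw [this]
    exact mul_mem ht (h.conj_mem (mem_DA_iff.mp hd).1 (inv_mem ht))
  have h4 := h.D_inf_A huH h2' h3
  have h5 : t * d = d * t := by
    calc t * d = (t * d * t⁻¹ * d⁻¹) * (d * t) := by group
      _ = d * t := by rw [h4, one_mul]
  rw [h.A_comm_D huH hd hd1 ht h5, mul_one]; exact he

end CCS

end Cfsg.Agent.Lib.Helper71.CC
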