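import Mathlib
import Cfsg.Agent.Lib.Helper71.CCEngine2

set_option autoImplicit false
set_option linter.unusedSectionVars false

/-! CC-engine: fixed points of `D`, transitivity of `A`. -/

namespace Cfsg.Agent.Lib.Helper71.CC

open Cfsg.Agent.Lib.Helper19

variable {G : Type*} [Group G]

namespace CCS

variable {A : Subgroup G} {z : G} [Finite G]

/-- two-point stabilisers all have the same order, so inclusion forces equality -/
theorem DA_eq_of_le (h : CCS A z) {u i : G} (hu : u * u = 1) (huH : u ∉ HA A)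
    (hi : i * i = 1) (hiH : i ∉ HA A) (hle : DA A u ≤ DA A i) : DA A u = DA A i := by
  apply Subgroup.eq_of_le_of_card_ge hle
  rw [h.card_D hu huH, h.card_D hi hiH]

/-- if `D` fixes the coset `gH ≠ H` then some involution of `gH` inverts `D` -/
theorem exists_invol_inverting (h : CCS A z) {u g : G} (hu : u * u = 1) (huH : u ∉ HA A)
    (hg : g ∉ HA A) (hfix : ∀ d ∈ DA A u, g⁻¹ * d * g ∈ HA A) :
    ∃ i : G, i ≠ 1 ∧ i * i = 1 ∧ i ∉ HA A ∧ g⁻¹ * i ∈ HA A ∧ DA A u = DA A i ∧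
      ∀ d ∈ DA A u, i * d * i⁻¹ = d⁻¹ := by
  obtain ⟨i, hi1, hi2, hiH, hgi⟩ := h.exists_invol_coset hg
  have hle : DA A u ≤ DA A i := by
    rw [← DA_congr hgi]
    intro d hd
    exact mem_DA_iff.mpr ⟨(mem_DA_iff.mp hd).1, hfix d hd⟩
  have heq := h.DA_eq_of_le hu huH hi2 hiH hle
  refine ⟨i, hi1, hi2, hiH, hgi, heq, fun d hd => ?_⟩
  exact h.D_inverted hi2 hiH (heq ▸ hd)

/-- `Fix(D) = {H, uH}` -/
theorem fix_D (h : CCS A z) (h2 : ∃ t ∈ A, t ≠ 1 ∧ t * t = 1 ∧ t ≠ z) {u g : G}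
    (hu : u * u = 1) (huH : u ∉ HA A)
    (hg : g ∉ HA A) (hfix : ∀ d ∈ DA A u, g⁻¹ * d * g ∈ HA A) : g⁻¹ * u ∈ HA A := by
  obtain ⟨i, hi1, hi2, hiH, hgi, -, hinv⟩ := h.exists_invol_inverting hu huH hg hfix
  have huinv := invol_inv hu
  have hiinv := invol_inv hi2
  -- `a = i * u` centralises `D`
  have hcent : ∀ d ∈ DA A u, (i * u) * d * (i * u)⁻¹ = d := by
    intro d hd
    have h1 := h.D_inverted hu huH hd
    have h2 := hinv d⁻¹ (inv_mem hd)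
    calc (i * u) * d * (i * u)⁻¹ = i * (u * d * u⁻¹) * i⁻¹ := by group
      _ = d := by rw [h1, h2, inv_inv]
  have haH : i * u ∈ HA A := by
    by_contra haH
    have hfix2 : ∀ d ∈ DA A u, (i * u)⁻¹ * d * (i * u) ∈ HA A := by
      intro d hd
      have h1 := hcent d hd
      have h2 : (i * u)⁻¹ * d * (i * u) = d := by
        nth_rewrite 1 [← h1]; group
      rw [h2]; exact (mem_DA_iff.mp hd).1
    obtain ⟨j, hj1, hj2, hjH, haj, -, hinvj⟩ := h.exists_invol_inverting hu huH haH hfix2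
    have hjinv := invol_inv hj2
    -- `n = (i*u)⁻¹ * j ∈ H` inverts `D`
    have hn : ∀ d ∈ DA A u, ((i * u)⁻¹ * j) * d * ((i * u)⁻¹ * j)⁻¹ = d⁻¹ := by
      intro d hd
      have h1 := hinvj d hd
      have h2 := hcent d⁻¹ (inv_mem hd)
      calc ((i * u)⁻¹ * j) * d * ((i * u)⁻¹ * j)⁻¹ = (i * u)⁻¹ * (j * d * j⁻¹) * (i * u) := by group
        _ = (i * u)⁻¹ * d⁻¹ * (i * u) := by rw [h1]
        _ = (i * u)⁻¹ * ((i * u) * d⁻¹ * (i * u)⁻¹) * (i * u) := by rw [h2]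
        _ = d⁻¹ := by group
    have hnD : (i * u)⁻¹ * j ∈ DA A u :=
      h.normalizer_D h2 hu huH haj (fun d hd => by rw [hn d hd]; exact inv_mem hd)
    obtain ⟨d, hd, hd1⟩ := h.exists_D_ne_one h2 hu huH
    apply hd1
    apply h.D_sq huH hd
    have h1 := hn d hd
    have h2 := h.D_comm hu huH hnD hd
    rw [h2, mul_assoc, mul_inv_cancel, mul_one] at h1
    nth_rewrite 1 [h1]; exact inv_mul_cancel d
  have : g⁻¹ * u = (g⁻¹ * i) * (i * u) := by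
    calc g⁻¹ * u = g⁻¹ * (i * i) * u := by rw [hi2, mul_one]
      _ = (g⁻¹ * i) * (i * u) := by simp only [mul_assoc]
  rw [this]; exact mul_mem hgi haH

/-- `Fix(d) = {H, uH}` for every `1 ≠ d ∈ D` -/
theorem fix_elt (h : CCS A z) (h2 : ∃ t ∈ A, t ≠ 1 ∧ t * t = 1 ∧ t ≠ z) {u g d : G}
    (hu : u * u = 1) (huH : u ∉ HA A)
    (hg : g ∉ HA A) (hd : d ∈ DA A u) (hd1 : d ≠ 1) (hfix : g⁻¹ * d * g ∈ HA A) :
    g⁻¹ * u ∈ HA A := by
  obtain ⟨i, hi1, hi2, hiH, hgi⟩ := h.exists_invol_coset hg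
  have hdi : d ∈ DA A i := by
    rw [← DA_congr hgi]
    exact mem_DA_iff.mpr ⟨(mem_DA_iff.mp hd).1, hfix⟩
  have hle : DA A i ≤ DA A u := by
    intro e he
    exact h.centralizer_D hu huH hd hd1 (mem_DA_iff.mp he).1 (h.D_comm hi2 hiH he hdi)
  have heq := h.DA_eq_of_le hi2 hiH hu huH hle
  apply h.fix_D h2 hu huH hg
  intro e he
  have : e ∈ DA A g := by rw [DA_congr hgi, heq]; exact he
  exact (mem_DA_iff.mp this).2

/-- `A` is transitive on the cosets different from `H` -/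
theorem A_trans (h : CCS A z) (h2 : ∃ t ∈ A, t ≠ 1 ∧ t * t = 1 ∧ t ≠ z) {u g : G}
    (hu : u * u = 1) (huH : u ∉ HA A)
    (hg : g ∉ HA A) : ∃ t ∈ A, g⁻¹ * (t * u) ∈ HA A := by
  obtain ⟨i, hi1, hi2, hiH, hgi⟩ := h.exists_invol_coset hg
  obtain ⟨e, he, he1⟩ := h.exists_D_ne_one h2 hi2 hiH
  rw [← DA_congr hgi] at he
  obtain ⟨heH, heg⟩ := mem_DA_iff.mp he
  obtain ⟨d, hd, t₀, ht₀, hedt⟩ := h.H_eq_DA hu huH heH
  have hd1 : d ≠ 1 := by
    rintro rfl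
    rw [one_mul] at hedt
    exact he1 (h.D_inf_A hg he (hedt ▸ ht₀))
  have hdH := (mem_DA_iff.mp hd).1
  let φ : A → A := fun t =>
    ⟨d⁻¹ * (t : G) * d * (t : G)⁻¹, mul_mem (h.conj_mem' hdH t.2) (inv_mem t.2)⟩
  have hφ : Function.Injective φ := by
    intro a b hab
    have h1 : d⁻¹ * (a : G) * d * (a : G)⁻¹ = d⁻¹ * (b : G) * d * (b : G)⁻¹ := congrArg Subtype.val hab
    have h2 : ((b : G)⁻¹ * (a : G)) * d = d * ((b : G)⁻¹ * (a : G)) := by
      calc ((b : G)⁻¹ * (a : G)) * d = (b : G)⁻¹ * d * (d⁻¹ * (a : G) * d * (a : G)⁻¹) * (a : G) := by group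
        _ = (b : G)⁻¹ * d * (d⁻¹ * (b : G) * d * (b : G)⁻¹) * (a : G) := by rw [h1]
        _ = d * ((b : G)⁻¹ * (a : G)) := by group
    have h3 := h.A_comm_D huH hd hd1 (mul_mem (inv_mem b.2) a.2) h2
    exact Subtype.ext (inv_mul_eq_one.mp h3).symm
  obtain ⟨t, ht⟩ := (Finite.injective_iff_surjective.mp hφ) ⟨t₀, ht₀⟩
  have ht' : d⁻¹ * (t : G) * d * (t : G)⁻¹ = t₀ := congrArg Subtype.val ht
  have hconj : e = (t : G) * d * (t : G)⁻¹ := by
    rw [hedt, ← ht']; group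
  refine ⟨t, t.2, ?_⟩
  have htg : (t : G)⁻¹ * g ∉ HA A := by
    intro hh
    apply hg
    have := mul_mem (A_le t.2) hh
    rwa [mul_inv_cancel_left] at this
  have h1 := h.fix_elt h2 hu huH htg hd hd1 (by
    have : ((t : G)⁻¹ * g)⁻¹ * d * ((t : G)⁻¹ * g) = g⁻¹ * ((t : G) * d * (t : G)⁻¹) * g := by group
    rw [this, ← hconj]; exact heg)
  have : g⁻¹ * ((t : G) * u) = ((t : G)⁻¹ * g)⁻¹ * u := by group
  rw [this]; exact h1

end CCS

end Cfsg.Agent.Lib.Helper71.CC
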