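import Mathlib

set_option autoImplicit false

namespace Cfsg.Agent.Lib.Helper71

universe u

/-- `x` is a `σ`-element -/
def IsPiElt {H : Type*} [Group H] (σ : Finset ℕ) (x : H) : Prop :=
  ∀ q : ℕ, q.Prime → q ∣ orderOf x → q ∈ σ

/-- the `σ`-part of `n` -/
def piPart (σ : Finset ℕ) (n : ℕ) : ℕ := σ.prod (fun q => q ^ n.factorization q)

theorem piPart_pos {σ : Finset ℕ} (hσ : ∀ q ∈ σ, q.Prime) (n : ℕ) : 0 < piPart σ n :=
  Finset.prod_pos fun q hq => pow_pos (hσ q hq).pos _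

theorem piPart_le_of_dvd {σ : Finset ℕ} (hσ : ∀ q ∈ σ, q.Prime) {m n : ℕ} (h : m ∣ n) (hn : n ≠ 0) :
    piPart σ m ≤ piPart σ n := by
  have hm : m ≠ 0 := fun h0 => hn (by rw [h0] at h; exact Nat.eq_zero_of_zero_dvd h)
  apply Finset.prod_le_prod'
  intro q hq
  exact Nat.pow_le_pow_right (hσ q hq).pos (((Nat.factorization_le_iff_dvd hm hn).mpr h) q)

/-- decomposition of an element into its `r`-part and its `r'`-part -/
theorem exists_rpart_decomp {H : Type*} [Group H] [Finite H] (r : ℕ) (hr : r.Prime) (x : H) :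
    ∃ a b : H, a * b = x ∧ Commute a b ∧ (∃ k : ℕ, orderOf a = r ^ k) ∧ orderOf b ∣ orderOf x ∧
      ¬ r ∣ orderOf b := by
  have hn : orderOf x ≠ 0 := (orderOf_pos x).ne'
  obtain ⟨k, m, hm, hkm⟩ := Nat.exists_eq_pow_mul_and_not_dvd hn r hr.ne_one
  have hcop : Nat.Coprime (r ^ k) m := Nat.Coprime.pow_left _ ((Nat.Prime.coprime_iff_not_dvd hr).mpr hm)
  obtain ⟨e, he1, he2⟩ := Nat.chineseRemainder hcop 1 0
  obtain ⟨f, hf1, hf2⟩ := Nat.chineseRemainder hcop 0 1
  have hsum : e + f ≡ 1 [MOD orderOf x] := by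
    rw [hkm]
    apply (Nat.modEq_and_modEq_iff_modEq_mul hcop).mp
    exact ⟨by simpa using he1.add hf1, by simpa using he2.add hf2⟩
  have hme : m ∣ e := (Nat.modEq_zero_iff_dvd).mp he2
  have hrf : r ^ k ∣ f := (Nat.modEq_zero_iff_dvd).mp hf1
  refine ⟨x ^ e, x ^ f, ?_, (Commute.refl x).pow_pow e f, ?_, ?_, ?_⟩
  · rw [← pow_add]
    have := (pow_eq_pow_iff_modEq (x := x)).mpr hsum
    rw [this, pow_one]
  · have h1 : (x ^ e) ^ (r ^ k) = 1 := by
      rw [← pow_mul]
      apply orderOf_dvd_iff_pow_eq_one.mp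
      rw [hkm, mul_comm]
      exact Nat.mul_dvd_mul hme dvd_rfl
    obtain ⟨j, -, hj⟩ := (Nat.dvd_prime_pow hr).mp (orderOf_dvd_of_pow_eq_one h1)
    exact ⟨j, hj⟩
  · exact orderOf_pow_dvd f
  · have h1 : (x ^ f) ^ m = 1 := by
      rw [← pow_mul]
      apply orderOf_dvd_iff_pow_eq_one.mp
      rw [hkm]
      exact Nat.mul_dvd_mul hrf dvd_rfl
    exact fun hd => hm (hd.trans (orderOf_dvd_of_pow_eq_one h1))

theorem orderOf_eq_of_isConj {H : Type*} [Group H] {x y : H} (h : IsConj x y) :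
    orderOf x = orderOf y := by
  obtain ⟨g, hg⟩ := isConj_iff.mp h
  rw [← hg]
  exact (orderOf_injective (MulAut.conj g).toMonoidHom (MulAut.conj g).injective x).symm

/-- Lemma B: covering `insert r σ`-classes from a cover of the `r`-classes and covers of the
`σ`-classes of centralizers -/
theorem cover_step {G : Type*} [Group G] [Finite G] (r : ℕ) (hr : r.Prime) (σ : Finset ℕ)
    (R : Finset G) (hR : ∀ u : G, (∃ k : ℕ, orderOf u = r ^ k) → ∃ v ∈ R, IsConj u v) (M : ℕ)
    (hS : ∀ u : G, ∃ S : Finset ↥(Subgroup.centralizer ({u} : Set G)),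
      (∀ y, IsPiElt σ y → ∃ s ∈ S, IsConj y s) ∧ S.card ≤ M) :
    ∃ S : Finset G, (∀ x, IsPiElt (insert r σ) x → ∃ s ∈ S, IsConj x s) ∧ S.card ≤ R.card * M := by
  classical
  choose S hS1 hS2 using hS
  refine ⟨R.biUnion (fun u => (S u).image (fun s => u * s.1)), ?_, ?_⟩
  · intro x hx
    obtain ⟨a, b, hab, hcomm, ha, hb1, hb2⟩ := exists_rpart_decomp r hr x
    obtain ⟨v, hvR, hav⟩ := hR a ha
    obtain ⟨g, hg⟩ := isConj_iff.mp hav
    -- `g * b * g⁻¹` centralizes `v`
    have hbc : g * b * g⁻¹ ∈ Subgroup.centralizer ({v} : Set G) := by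
      rw [Subgroup.mem_centralizer_singleton_iff, ← hg]
      have := hcomm.eq
      calc g * b * g⁻¹ * (g * a * g⁻¹) = g * (b * a) * g⁻¹ := by group
        _ = g * (a * b) * g⁻¹ := by rw [this]
        _ = _ := by group
    have hbπ : IsPiElt σ (⟨g * b * g⁻¹, hbc⟩ : ↥(Subgroup.centralizer ({v} : Set G))) := by
      intro q hq hqd
      rw [← Subgroup.orderOf_coe] at hqd
      have e : orderOf (g * b * g⁻¹) = orderOf b :=
        (orderOf_eq_of_isConj (isConj_iff.mpr ⟨g, rfl⟩)).symm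
      simp only [e] at hqd
      have h1 := hx q hq (hqd.trans hb1)
      rcases Finset.mem_insert.mp h1 with h | h
      · exact absurd (h ▸ hqd) hb2
      · exact h
    obtain ⟨s, hsS, hs⟩ := hS1 v _ hbπ
    refine ⟨v * s.1, ?_, ?_⟩
    · exact Finset.mem_biUnion.mpr ⟨v, hvR, Finset.mem_image.mpr ⟨s, hsS, rfl⟩⟩
    · obtain ⟨c, hc⟩ := isConj_iff.mp hs
      have hc' : c.1 * (g * b * g⁻¹) * c.1⁻¹ = s.1 := congrArg Subtype.val hc
      have hcv : c.1 * v = v * c.1 := by
        have := c.2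
        rw [Subgroup.mem_centralizer_singleton_iff] at this
        exact this
      apply isConj_iff.mpr
      refine ⟨c.1 * g, ?_⟩
      rw [← hab, ← hc']
      calc c.1 * g * (a * b) * (c.1 * g)⁻¹ = c.1 * (g * a * g⁻¹) * (g * b * g⁻¹) * c.1⁻¹ := by group
        _ = c.1 * v * (g * b * g⁻¹) * c.1⁻¹ := by rw [hg]
        _ = v * c.1 * (g * b * g⁻¹) * c.1⁻¹ := by rw [hcv]
        _ = _ := by group
  · apply Finset.card_biUnion_le_card_mul
    intro u _
    exact Finset.card_image_le.trans (hS2 u)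

/-- Lemma A: the `σ`-classes of `H` are covered by at most `|H|_σ` elements -/
theorem exists_cover (σ : Finset ℕ) (hσ : ∀ q ∈ σ, q.Prime) :
    ∀ (H : Type u) [Group H] [Finite H], ∃ S : Finset H,
      (∀ x, IsPiElt σ x → ∃ s ∈ S, IsConj x s) ∧ S.card ≤ piPart σ (Nat.card H) := by
  classical
  induction σ using Finset.induction_on with
  | empty =>
    intro H _ _
    refine ⟨{1}, ?_, by simp [piPart]⟩
    intro x hx
    have h1 : orderOf x = 1 := by
      by_contra hne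
      obtain ⟨q, hq, hqd⟩ := Nat.exists_prime_and_dvd hne
      exact absurd (hx q hq hqd) (Finset.notMem_empty q)
    rw [orderOf_eq_one_iff] at h1
    exact ⟨1, Finset.mem_singleton_self 1, h1 ▸ IsConj.refl _⟩
  | insert r σ hrσ ih =>
    intro H _ _
    have hr : r.Prime := hσ r (Finset.mem_insert_self r σ)
    have hσ' : ∀ q ∈ σ, q.Prime := fun q hq => hσ q (Finset.mem_insert_of_mem hq)
    have : Fact r.Prime := ⟨hr⟩
    obtain ⟨P⟩ : Nonempty (Sylow r H) := inferInstance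
    have hfin : ((P : Subgroup H) : Set H).Finite := Set.toFinite _
    have hR : ∀ u : H, (∃ k : ℕ, orderOf u = r ^ k) → ∃ v ∈ hfin.toFinset, IsConj u v := by
      rintro u ⟨k, hk⟩
      have hpg : IsPGroup r (Subgroup.zpowers u) := by
        apply IsPGroup.of_card (n := k)
        rw [Nat.card_zpowers, hk]
      obtain ⟨Q, hQ⟩ := hpg.exists_le_sylow
      obtain ⟨h, hh⟩ := MulAction.exists_smul_eq H Q P
      refine ⟨h * u * h⁻¹, ?_, isConj_iff.mpr ⟨h, rfl⟩⟩
      rw [Set.Finite.mem_toFinset, SetLike.mem_coe, ← hh, Sylow.coe_subgroup_smul]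
      have h1 : u ∈ (Q : Subgroup H) := hQ (Subgroup.mem_zpowers u)
      have h2 := Subgroup.smul_mem_pointwise_smul u (MulAut.conj h) (Q : Subgroup H) h1
      simpa [MulAut.smul_def] using h2
    obtain ⟨S, hS1, hS2⟩ := cover_step r hr σ hfin.toFinset hR (piPart σ (Nat.card H)) (by
      intro u
      obtain ⟨S, hS1, hS2⟩ := ih hσ' ↥(Subgroup.centralizer ({u} : Set H))
      exact ⟨S, hS1, hS2.trans (piPart_le_of_dvd hσ' (Subgroup.card_subgroup_dvd_card _)
        Nat.card_pos.ne')⟩)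
    refine ⟨S, hS1, hS2.trans (le_of_eq ?_)⟩
    have e : piPart (insert r σ) (Nat.card H) =
        r ^ (Nat.card H).factorization r * piPart σ (Nat.card H) := by
      unfold piPart
      rw [Finset.prod_insert hrσ]
    rw [e]
    congr 1
    rw [← Sylow.card_eq_multiplicity P, ← Set.ncard_eq_toFinset_card _ hfin]
    rfl

end Cfsg.Agent.Lib.Helper71
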