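import Mathlib
import Cfsg.Prelude.Def_LieExceptional
import Cfsg.Prelude.Def_OddOrderLocal
import Cfsg.Agent.Lib.Helper71.Fitting

set_option autoImplicit false

/-! # Groups all of whose element centralizers are T.I.: basics -/

namespace Cfsg.Agent.Lib.Helper71.TIC

variable {G : Type*} [Group G]

/-- elementwise form of "all element centralizers are T.I. sets" -/
def PT (G : Type*) [Group G] : Prop :=
  ∀ x w g : G, w ≠ 1 → Commute x w → Commute x (g * w * g⁻¹) →
    ∀ c : G, Commute x c → Commute x (g * c * g⁻¹)

theorem PT.of_injective {M : Type*} [Group M] (h : PT G) (f : M →* G)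
    (hf : Function.Injective f) : PT M := by
  intro x w g hw h1 h2 c hc
  have h3 := h (f x) (f w) (f g) (fun hh => hw (hf (hh.trans (map_one f).symm))) (h1.map f)
    (by simpa using h2.map f) (f c) (hc.map f)
  apply hf
  have := h3.eq
  simpa using this

theorem PT.subgroup (h : PT G) (N : Subgroup G) : PT N := h.of_injective N.subtype N.subtype_injective

theorem PT.pb (h : PT G) {x y l : G} (hx : x ≠ 1) (hxy : Commute x y) (hxl : Commute x l) :
    Commute y (l * y * l⁻¹) := by
  apply h y x l hx hxy.symm _ y (Commute.refl y)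
  have : l * x * l⁻¹ = x := by rw [← hxl.eq, mul_inv_cancel_right]
  rw [this]
  exact hxy.symm

/-- a finite group in which every element commutes with all its conjugates is nilpotent -/
theorem nilpotent_of_comm_conj {L : Type*} [Group L] [Finite L]
    (h : ∀ y l : L, Commute y (l * y * l⁻¹)) : Group.IsNilpotent L := by
  classical
  have key : ∀ (p : ℕ) [Fact p.Prime] (P : Sylow p L), (P : Subgroup L).Normal := by
    intro p _ P
    refine ⟨fun x hx g => ?_⟩
    -- the normal closure of `x` is an abelian `p`-group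
    have hcomm : ∀ a ∈ Group.conjugatesOfSet ({x} : Set L), ∀ b ∈ Group.conjugatesOfSet ({x} : Set L),
        a * b = b * a := by
      intro a ha b hb
      rw [Group.mem_conjugatesOfSet_iff] at ha hb
      obtain ⟨x1, hx1, ha⟩ := ha
      obtain ⟨x2, hx2, hb⟩ := hb
      rw [Set.mem_singleton_iff.mp hx1] at ha
      rw [Set.mem_singleton_iff.mp hx2] at hb
      obtain ⟨c, rfl⟩ := isConj_iff.mp ha
      obtain ⟨d, rfl⟩ := isConj_iff.mp hb
      have h1 := (h x (c⁻¹ * d)).eq
      have e1 : c * x * c⁻¹ * (d * x * d⁻¹) = c * (x * (c⁻¹ * d * x * (c⁻¹ * d)⁻¹)) * c⁻¹ := by group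
      have e2 : d * x * d⁻¹ * (c * x * c⁻¹) = c * ((c⁻¹ * d * x * (c⁻¹ * d)⁻¹) * x) * c⁻¹ := by group
      rw [e1, e2, h1]
    have hab := Subgroup.isMulCommutative_closure hcomm
    have hp : IsPGroup p (Subgroup.normalClosure ({x} : Set L)) := by
      have : ∀ n ∈ Subgroup.closure (Group.conjugatesOfSet ({x} : Set L)), ∃ k : ℕ, n ^ p ^ k = 1 := by
        intro n hn
        induction hn using Subgroup.closure_induction with
        | mem a ha =>
          rw [Group.mem_conjugatesOfSet_iff] at ha
          obtain ⟨x1, hx1, ha⟩ := ha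
          rw [Set.mem_singleton_iff.mp hx1] at ha
          obtain ⟨c, rfl⟩ := isConj_iff.mp ha
          obtain ⟨k, hk⟩ := P.isPGroup' ⟨x, hx⟩
          refine ⟨k, ?_⟩
          have hk' : x ^ p ^ k = 1 := by simpa using congrArg Subtype.val hk
          rw [conj_pow, hk']
          group
        | one => exact ⟨0, by simp⟩
        | mul a b ha hb iha ihb =>
          obtain ⟨k, hk⟩ := iha
          obtain ⟨l, hl⟩ := ihb
          have hc : Commute a b := by
            have := hab.is_comm.comm ⟨a, ha⟩ ⟨b, hb⟩
            exact congrArg Subtype.val this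
          refine ⟨k + l, ?_⟩
          rw [hc.mul_pow, pow_add, pow_mul, hk, one_pow, one_mul, mul_comm, pow_mul, hl, one_pow]
        | inv a ha iha =>
          obtain ⟨k, hk⟩ := iha
          exact ⟨k, by rw [inv_pow, hk, inv_one]⟩
      intro n
      obtain ⟨k, hk⟩ := this n.1 n.2
      exact ⟨k, Subtype.ext hk⟩
    have hle := Cfsg.Agent.Lib.Helper71.normal_pGroup_le_sylow _ hp P
    apply hle
    exact Subgroup.normalClosure_normal.conj_mem x (Subgroup.subset_normalClosure (Set.mem_singleton x)) g
  exact ((Group.isNilpotent_of_finite_tfae (G := L)).out 0 3).mpr (fun p hp P => @key p hp P)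

theorem PT.cn [Finite G] (h : PT G) : Cfsg.IsCNGroup G := by
  intro x hx
  apply nilpotent_of_comm_conj
  intro y l
  have hy := Subgroup.mem_centralizer_singleton_iff.mp y.2
  have hl := Subgroup.mem_centralizer_singleton_iff.mp l.2
  have := h.pb hx (show Commute x y from hy.symm) (show Commute x l from hl.symm)
  exact Subtype.ext this.eq

theorem PT.nilpotent_of_central [Finite G] (h : PT G) {x : G} (hx : x ≠ 1)
    (hc : ∀ g : G, Commute x g) : Group.IsNilpotent G :=
  nilpotent_of_comm_conj fun y l => h.pb hx (hc y) (hc l)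

theorem pt_of_ti (hTI : ∀ x : G, Cfsg.IsTISubset (Subgroup.centralizer ({x} : Set G) : Set G)) :
    PT G := by
  intro x w g hw h1 h2 c hc
  have hg : g ∈ Subgroup.normalizer (Subgroup.centralizer ({x} : Set G) : Set G) := by
    by_contra hg
    exact hw (hTI x g hg w (Subgroup.mem_centralizer_singleton_iff.mpr h1.symm.eq)
      (Subgroup.mem_centralizer_singleton_iff.mpr h2.symm.eq))
  have := (Subgroup.mem_normalizer_iff.mp hg c).mp (Subgroup.mem_centralizer_singleton_iff.mpr hc.symm.eq)
  exact (Subgroup.mem_centralizer_singleton_iff.mp this).symm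

end Cfsg.Agent.Lib.Helper71.TIC
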