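import Cfsg.Agent.Lib.Helper71.TICent1
import Cfsg.Agent.S1476
import Cfsg.Agent.Lib.Helper25.NilpotentCoprime
import Cfsg.Agent.Lib.Helper1.Cores

set_option autoImplicit false

/-! # Groups all of whose element centralizers are T.I.: the solvable case -/

namespace Cfsg.Agent.Lib.Helper71.TIC

variable {G : Type*} [Group G]

theorem sup_equiv_prod (C Q : Subgroup G) (hc : ∀ a ∈ C, ∀ b ∈ Q, a * b = b * a)
    (hcop : (Nat.card C).Coprime (Nat.card Q)) : Nonempty (↥(C ⊔ Q) ≃* C × Q) := by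
  have hcomm : ∀ (a : C) (b : Q), Commute (C.subtype a) (Q.subtype b) := fun a b => hc a a.2 b b.2
  let f := MonoidHom.noncommCoprod C.subtype Q.subtype hcomm
  have hinj : Function.Injective f := by
    apply (MonoidHom.noncommCoprod_injective _ _ _).mpr
    refine ⟨C.subtype_injective, Q.subtype_injective, ?_⟩
    rw [Subgroup.range_subtype, Subgroup.range_subtype]
    exact Subgroup.disjoint_of_coprime_natCard hcop
  have hr : f.range = C ⊔ Q := by
    show (MonoidHom.noncommCoprod C.subtype Q.subtype _).range = _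
    rw [MonoidHom.noncommCoprod_range, Subgroup.range_subtype, Subgroup.range_subtype]
  exact ⟨((MonoidHom.ofInjective hinj).trans (MulEquiv.subgroupCongr hr)).symm⟩

theorem quat_le (n : ℕ) (h : PT (QuaternionGroup (2 ^ n))) : n ≤ 1 := by
  by_contra hn
  push Not at hn
  have h8 : 8 ≤ 2 * 2 ^ n := by
    have : 2 ^ 2 ≤ 2 ^ n := Nat.pow_le_pow_right (by norm_num) hn
    omega
  have hN0 : ((2 ^ n : ℕ) : ZMod (2 * 2 ^ n)) ≠ 0 := by
    rw [Ne, ZMod.natCast_eq_zero_iff]
    intro hd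
    have := Nat.le_of_dvd (by positivity) hd
    omega
  have hNN : ((2 ^ n : ℕ) : ZMod (2 * 2 ^ n)) + ((2 ^ n : ℕ) : ZMod (2 * 2 ^ n)) = 0 := by
    rw [← Nat.cast_add, ZMod.natCast_eq_zero_iff, two_mul]
  have h4 : (4 : ZMod (2 * 2 ^ n)) ≠ 0 := by
    have : ((4 : ℕ) : ZMod (2 * 2 ^ n)) ≠ 0 := by
      rw [Ne, ZMod.natCast_eq_zero_iff]
      intro hd
      have := Nat.le_of_dvd (by norm_num) hd
      omega
    simpa using this
  have h1 := h.pb (x := QuaternionGroup.a ((2 ^ n : ℕ) : ZMod (2 * 2 ^ n)))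
    (y := QuaternionGroup.xa 0) (l := QuaternionGroup.a 1) ?_ ?_ ?_
  · have e : (QuaternionGroup.a 1 : QuaternionGroup (2 ^ n))⁻¹ = QuaternionGroup.a (-1) := by
      rw [inv_eq_iff_mul_eq_one, QuaternionGroup.a_mul_a, add_neg_cancel, QuaternionGroup.a_zero]
    have h2 := h1.eq
    rw [e, QuaternionGroup.a_mul_xa, QuaternionGroup.xa_mul_a, QuaternionGroup.xa_mul_xa,
      QuaternionGroup.xa_mul_xa, QuaternionGroup.a.injEq] at h2
    apply h4
    linear_combination -h2
  · rw [QuaternionGroup.one_def, Ne, QuaternionGroup.a.injEq]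
    exact hN0
  · show _ * _ = _ * _
    rw [QuaternionGroup.a_mul_xa, QuaternionGroup.xa_mul_a, QuaternionGroup.xa.injEq]
    linear_combination -hNN
  · show _ * _ = _ * _
    rw [QuaternionGroup.a_mul_a, QuaternionGroup.a_mul_a, add_comm]

theorem not_threeStep [Finite G] (h : PT G) (p : ℕ) (hp : p.Prime)
    (h3 : Cfsg.IsThreeStepGroup p G) : False := by
  have : Fact p.Prime := ⟨hp⟩
  obtain ⟨hP0, A, -, -, -, -, -, hne, ⟨n, hn⟩, -, -⟩ := h3
  obtain ⟨S⟩ : Nonempty (Sylow p G) := inferInstance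
  have hP0S : Cfsg.pCore p G ≤ S := Cfsg.Agent.Lib.Helper1.pCore_le_sylow S
  have hP0n : (Cfsg.pCore p G).Normal := Cfsg.Agent.Lib.Helper1.pCore_normal p
  obtain ⟨x, hxP, hx1⟩ : ∃ x ∈ Cfsg.pCore p G, x ≠ 1 := by
    by_contra hcon
    push Not at hcon
    exact hP0 ((Subgroup.eq_bot_iff_forall _).mpr hcon)
  have hSnt : Nontrivial S := ⟨⟨⟨x, hP0S hxP⟩, 1, fun hh => hx1 (congrArg Subtype.val hh)⟩⟩
  have hcen := S.isPGroup'.center_nontrivial
  obtain ⟨⟨z, hz⟩, hz1⟩ := exists_ne (1 : Subgroup.center S)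
  have hz1' : (z : G) ≠ 1 := by
    intro hh
    apply hz1
    apply Subtype.ext
    apply Subtype.ext
    exact hh
  have hzS : ∀ s ∈ S, Commute (z : G) s := by
    intro s hs
    have := Subgroup.mem_center_iff.mp hz ⟨s, hs⟩
    exact (congrArg Subtype.val this).symm
  have hSC : (S : Subgroup G) ≤ Subgroup.centralizer ({(z : G)} : Set G) := by
    intro s hs
    rw [Subgroup.mem_centralizer_singleton_iff]
    exact (hzS s hs).symm
  have hCnil : Group.IsNilpotent (Subgroup.centralizer ({(z : G)} : Set G)) := h.cn z hz1'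
  have hSn : (S : Subgroup G).Normal := by
    refine ⟨fun s hs g => ?_⟩
    have h1 : Commute (z : G) (g * s * g⁻¹) :=
      h z x g hx1 (hzS x (hP0S hxP)) (hzS _ (hP0S (hP0n.conj_mem x hxP g))) s (hzS s hs)
    obtain ⟨k, hk⟩ := IsPGroup.iff_orderOf.mp S.isPGroup' ⟨s, hs⟩
    have hk' : orderOf (g * s * g⁻¹) = p ^ k := by
      rw [← hk, Subgroup.orderOf_mk]
      simpa using (MulAut.conj g).orderOf_eq s
    exact Cfsg.Agent.Lib.Helper25.mem_sylow_of_mem_nilpotent hCnil p S hSC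
      (Subgroup.mem_centralizer_singleton_iff.mpr h1.symm) k hk'
  have hSle : (S : Subgroup G) ≤ Cfsg.pCore p G := Cfsg.Agent.Lib.Helper1.le_pCore hSn S.isPGroup'
  have h1 : (Cfsg.pCore p G ⊔ A).index ∣ (S : Subgroup G).index :=
    Subgroup.index_dvd_of_le (hSle.trans le_sup_left)
  have h2 : ¬ p ∣ (S : Subgroup G).index := S.not_dvd_index
  rcases n with _ | n
  · rw [pow_zero] at hn
    exact hne (Subgroup.index_eq_one.mp hn)
  · exact h2 (dvd_trans (hn ▸ dvd_pow_self p (Nat.succ_ne_zero n)) h1)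

theorem solvable_case [Finite G] [Group.IsSolvable G] (h : PT G) :
    Group.IsNilpotent G ∨
    (∃ H : Subgroup G, Cfsg.IsFrobeniusComplement H ∧
      (IsCyclic H ∨ ∃ m : ℕ, Odd m ∧
        Nonempty (H ≃* Multiplicative (ZMod m) × QuaternionGroup 2))) := by
  rcases Cfsg.Agent.S1476.result h.cn with h1 | ⟨K, E, -, -, hE, hE2⟩ | ⟨p, hp, h3⟩
  · exact Or.inl h1
  · right
    refine ⟨E, hE, ?_⟩
    rcases hE2 with hc | ⟨C, Q, rfl, hCQ, hCc, hCodd, n, ⟨e⟩⟩
    · exact Or.inl hc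
    have hQcard : Nat.card Q = 4 * 2 ^ n := by
      rw [Nat.card_congr e.toEquiv, Nat.card_eq_fintype_card, QuaternionGroup.card]
    have hcop : (Nat.card C).Coprime (Nat.card Q) := by
      rw [hQcard, show 4 * 2 ^ n = 2 ^ (n + 2) by ring]
      exact Nat.Coprime.pow_right _ (Nat.coprime_two_right.mpr hCodd)
    obtain ⟨φ⟩ := sup_equiv_prod C Q hCQ hcop
    have hPTQ : PT (QuaternionGroup (2 ^ n)) :=
      h.of_injective (Q.subtype.comp e.symm.toMonoidHom)
        (Q.subtype_injective.comp e.symm.injective)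
    have hn := quat_le n hPTQ
    interval_cases n
    · left
      rw [φ.isCyclic, Group.isCyclic_prod_iff]
      refine ⟨hCc, ?_, hcop⟩
      rw [e.isCyclic]
      exact QuaternionGroup.quaternionGroup_one_isCyclic
    · right
      refine ⟨Nat.card C, hCodd, ⟨φ.trans (MulEquiv.prodCongr ?_ e)⟩⟩
      exact (zmodCyclicMulEquiv hCc).symm
  · exact (not_threeStep h p hp h3).elim

end Cfsg.Agent.Lib.Helper71.TIC
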